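import Mathlib
import Cfsg.Agent.KFacts.RgdBorelTits

/-!
# Regular torus elements in parabolic subgroups of a group with root group data

* `mem_PJ_mul_NN` : if `q t q⁻¹ ∈ P_J` for a regular `t ∈ T` then `q ∈ P_J N`;
* `borel_tits_reg` : a `p`-subgroup normalised by `y = z t z⁻¹`, `t` regular, lies in `z ⟨X a : f a > 0⟩ z⁻¹`.
-/

set_option autoImplicit false
set_option linter.unusedSectionVars false

namespace Cfsg.Agent.H948.E8.RegPar

open CoxeterSystem Cfsg.Agent.ChevalleyStructure.CoxeterGeom Cfsg.Agent.Tits.Roots Cfsg.Agent.Tits.Core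
  Cfsg.Agent.Tits.RootComb Cfsg.Agent.Tits.Exchange Cfsg.Agent.Nodes.Reps Cfsg.Agent.Nodes.BNOf
  Cfsg.Agent.Nodes.StabComb Cfsg.Agent.Nodes.Bruhat Cfsg.Agent.Nodes.OppDec Cfsg.Agent.Nodes.LeviDec
  Cfsg.Agent.Nodes.NormalForm Cfsg.Agent.KFacts.RgdPar Cfsg.Agent.KFacts.RgdBorelTits

variable {I W Y : Type*} [Fintype I] [DecidableEq I] [Group W] [Group Y] {M : CoxeterMatrix I}
  {cs : CoxeterSystem M W} {A : I → I → ℤ} {h : IsCartan M A} {p : ℕ} {T : Subgroup Y} {n : I → Y}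
  {X : (I → ℤ) → Subgroup Y}

/-- a torus element is regular -/
def Regular (cs : CoxeterSystem M W) (h : IsCartan M A) (X : (I → ℤ) → Subgroup Y) (t : Y) : Prop :=
  ∀ x, IsRoot cs h x → ∀ a ∈ X x, t * a = a * t → a = 1

/-- minimal coset representatives -/
theorem exists_min_rep (J : Set I) (w : W) : ∃ a ∈ WJ cs J, ∃ v : W, w = a * v ∧ ∀ j ∈ J, 0 ≤ rep cs h v⁻¹ (sr j) := by
  obtain ⟨a, ha, hmin⟩ := Nodes.Comb.exists_min (cs := cs) w⁻¹ J
  refine ⟨a, ha, a⁻¹ * w, by group, fun j hj => ?_⟩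
  have h1 := Nodes.Comb.nonneg_of_min cs h ha hmin hj
  have e : (a⁻¹ * w)⁻¹ = w⁻¹ * a := by group
  rw [e]
  exact h1

theorem rep_nonneg_of_RootsJ {J : Set I} {v : W} (hv : ∀ j ∈ J, 0 ≤ rep cs h v⁻¹ (sr j)) {x : I → ℤ} (h0 : 0 ≤ x)
    (hx : ∀ k, k ∉ J → x k = 0) : 0 ≤ rep cs h v⁻¹ x := by
  have e := eq_sum_sr x
  rw [e, map_sum]
  refine Finset.sum_nonneg fun k _ => ?_
  rw [map_zsmul]
  by_cases hk : k ∈ J
  · exact smul_nonneg (h0 k) (hv k hk)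
  · rw [hx k hk, zero_smul]

/-- the positive roots made negative by a minimal representative -/
theorem act_NW {J : Set I} {v : W} (hv : ∀ j ∈ J, 0 ≤ rep cs h v⁻¹ (sr j)) {x : I → ℤ} (hx : x ∈ NW cs h v) :
    rep cs h v x ∈ NotNJ cs h J := by
  obtain ⟨hr, h0, h1⟩ := hx
  have hr1 := hr.act v
  have hr2 : IsRoot cs h (-rep cs h v x) := hr1.neg
  rcases mem_PosJ_or_NotJ (cs := cs) (h := h) J hr2 (neg_nonneg.2 h1) with h2 | h2
  · exfalso
    have h3 := rep_nonneg_of_RootsJ hv h2.2.1 h2.2.2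
    rw [map_neg, rep_inv_apply] at h3
    exact hr.not_pos_neg h0 (neg_nonneg.1 h3)
  · exact h2

variable (R : RGD cs h p T n X)

include R

/-- the centraliser of a regular element in `U` is trivial -/
theorem eq_one_of_regular [Finite W] {t : Y} (ht : t ∈ T) (hreg : Regular cs h X t) {v : Y}
    (hv : v ∈ RGD.Sup X (RGD.Pos cs h)) (hc : t * v = v * t) : v = 1 := by
  have h1 : v ∈ RGD.Sup X (RGD.Pos cs h) ⊓ Subgroup.centralizer {t} :=
    ⟨hv, Subgroup.mem_centralizer_singleton_iff.2 hc.symm⟩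
  rw [centralizer_U R (Set.singleton_subset_iff.2 ht)] at h1
  have h2 : RGD.Sup (fun x => X x ⊓ Subgroup.centralizer {t}) (RGD.Pos cs h) ≤ ⊥ := by
    refine RGD.Sup_le fun x hx => ?_
    rintro a ⟨ha, hac⟩
    exact Subgroup.mem_bot.2 (hreg x hx.1 a ha (Subgroup.mem_centralizer_singleton_iff.1 hac).symm)
  exact Subgroup.mem_bot.1 (h2 h1)

/-- **An element which carries a regular torus element into `P_J` lies in `P_J N`.** -/
theorem mem_PJ_mul_NN [Finite W] {J : Set I} {q t : Y} (hq : q ∈ GG cs h T X) (ht : t ∈ T)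
    (hreg : Regular cs h X t) (hP : q * t * q⁻¹ ∈ PJ cs h T X J) :
    ∃ b ∈ PJ cs h T X J, ∃ w k, Rp cs R.nsys w k ∧ q = b * k := by
  obtain ⟨w, hw⟩ := (mem_GG R).1 hq
  obtain ⟨u, hu, k, hk, v, hv, rfl⟩ := exists_normal_form R hw
  obtain ⟨a, ha, w', rfl, hmin⟩ := exists_min_rep (h := h) J w
  obtain ⟨l, hl⟩ := exists_rp cs R.nsys a
  have hlP : l ∈ PJ cs h T X J := LJ_le_PJ (rp_mem_LJ R ha hl)
  have hk' : Rp cs R.nsys w' (l⁻¹ * k) := by
    have h1 := hl.inv.mul hk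
    rwa [inv_mul_cancel_left] at h1
  set k' := l⁻¹ * k with hk'def
  have hkk : k = l * k' := by rw [hk'def]; group
  have hvU : v ∈ RGD.Sup X (RGD.Pos cs h) :=
    RGD.Sup_mono (S := NW cs h (a * w')) (S' := RGD.Pos cs h) (fun x hx => ⟨hx.1, hx.2.1⟩) hv
  obtain ⟨v1, hv1, v2, hv2, rfl⟩ := exists_PW_NW R w' hvU
  have hv1U : k' * v1 * k'⁻¹ ∈ RGD.Sup X (RGD.Pos cs h) :=
    conj_mem_Sup R hk' (S' := RGD.Pos cs h) (fun x hx => hx.1) (fun x hx => ⟨hx.1.act _, hx.2.2⟩) hv1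
  have hUP : RGD.Sup X (RGD.Pos cs h) ≤ PJ cs h T X J := le_trans RGD.U_le_B B_le_PJ
  have hb : u * l * (k' * v1 * k'⁻¹) ∈ PJ cs h T X J := mul_mem (mul_mem (hUP hu) hlP) (hUP hv1U)
  have hqe : u * k * (v1 * v2) = u * l * (k' * v1 * k'⁻¹) * (k' * v2) := by rw [hkk]; group
  set b := u * l * (k' * v1 * k'⁻¹) with hbdef
  rw [hqe] at hP ⊢
  -- `k' v2 t v2⁻¹ k'⁻¹ ∈ P_J`
  have h1 : k' * v2 * t * (k' * v2)⁻¹ ∈ PJ cs h T X J := by
    have h2 := mul_mem (mul_mem (inv_mem hb) hP) hb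
    have e : b⁻¹ * (b * (k' * v2) * t * (b * (k' * v2))⁻¹) * b = k' * v2 * t * (k' * v2)⁻¹ := by group
    rwa [e] at h2
  have htk : k' * t * k'⁻¹ ∈ T := (Subgroup.mem_normalizer_iff.1 hk'.mem_normalizer t).1 ht
  have hTP : T ≤ PJ cs h T X J := le_trans T_le_LJ LJ_le_PJ
  have hcN : t⁻¹ * v2 * t * v2⁻¹ ∈ RGD.Sup X (NW cs h w') := by
    refine mul_mem ?_ (inv_mem hv2)
    have h2 := (Subgroup.mem_normalizer_iff.1 (R.T_le_normalizer (S := NW cs h w') (fun x hx => hx.1)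
      (inv_mem ht)) v2).1 hv2
    rwa [inv_inv] at h2
  have h2 : k' * (t⁻¹ * v2 * t * v2⁻¹) * k'⁻¹ ∈ VNJ cs h X J :=
    conj_mem_Sup R hk' (S' := NotNJ cs h J) (fun x hx => hx.1) (fun x hx => act_NW hmin hx) hcN
  have h3 : k' * (t⁻¹ * v2 * t * v2⁻¹) * k'⁻¹ ∈ PJ cs h T X J := by
    have h4 := mul_mem (hTP (inv_mem htk)) h1
    have e : (k' * t * k'⁻¹)⁻¹ * (k' * v2 * t * (k' * v2)⁻¹) = k' * (t⁻¹ * v2 * t * v2⁻¹) * k'⁻¹ := by group
    rwa [e] at h4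
  have h4 := eq_one_of_mem_VNJ_of_mem_PJ R h2 h3
  have h5 : t⁻¹ * v2 * t * v2⁻¹ = 1 := by
    have e : t⁻¹ * v2 * t * v2⁻¹ = k'⁻¹ * (k' * (t⁻¹ * v2 * t * v2⁻¹) * k'⁻¹) * k' := by group
    rw [e, h4]; group
  have h6 : t * v2 = v2 * t := by
    have e : v2 * t = t * (t⁻¹ * v2 * t * v2⁻¹) * v2 := by group
    rw [e, h5, mul_one]
  have h7 : v2 = 1 := eq_one_of_regular R ht hreg
    (RGD.Sup_mono (S := NW cs h w') (S' := RGD.Pos cs h) (fun x hx => ⟨hx.1, hx.2.1⟩) hv2) h6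
  exact ⟨b, hb, w', k', hk', by rw [h7, mul_one]⟩

omit R in
/-- the functional of `J` -/
noncomputable def fJ (J : Set I) : (I → ℤ) →+ ℤ := by
  classical
  exact { toFun := fun x => ∑ i, if i ∈ J then 0 else x i
          map_zero' := by simp
          map_add' := fun x y => by
            rw [← Finset.sum_add_distrib]
            refine Finset.sum_congr rfl fun i _ => ?_
            split_ifs <;> simp }

omit R in
theorem fJ_pos {J : Set I} {x : I → ℤ} (h0 : 0 ≤ x) (hk : ∃ k, k ∉ J ∧ 0 < x k) : 0 < fJ J x := by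
  classical
  obtain ⟨k, hk, hk0⟩ := hk
  have e : fJ J x = ∑ i, if i ∈ J then 0 else x i := by
    unfold fJ
    simp only [AddMonoidHom.coe_mk, ZeroHom.coe_mk]
  rw [e]
  refine lt_of_lt_of_le hk0 ?_
  have h1 : (if k ∈ J then 0 else x k) ≤ ∑ i, if i ∈ J then 0 else x i :=
    Finset.single_le_sum (f := fun i => if i ∈ J then (0 : ℤ) else x i) (fun i _ => by
      show (0 : ℤ) ≤ if i ∈ J then (0 : ℤ) else x i
      split_ifs
      · exact le_rfl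
      · exact h0 i) (Finset.mem_univ k)
  rwa [if_neg hk] at h1

/-- **Borel–Tits with a regular element.** -/
theorem borel_tits_reg [Finite W] [Finite Y] [Fact p.Prime] {F : (I → ℤ) → ℝ → Subgroup Y} (hF : Filt R F)
    (hG : GG cs h T X = ⊤) {K : Subgroup Y} (hK : IsPGroup p K) {y z t : Y}
    (hy : y ∈ Subgroup.normalizer (K : Set Y)) (hz : z⁻¹ * y * z = t) (ht : t ∈ T) (hreg : Regular cs h X t) :
    ∃ f : (I → ℤ) →+ ℤ, ∀ u ∈ K, z⁻¹ * u * z ∈ RGD.Sup X {a | IsRoot cs h a ∧ 0 < f a} := by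
  by_cases hK1 : K = ⊥
  · refine ⟨0, fun u hu => ?_⟩
    rw [hK1, Subgroup.mem_bot] at hu
    rw [hu, mul_one, inv_mul_cancel]
    exact one_mem _
  obtain ⟨g, J, hJ, h1, h2⟩ := borel_tits hF hG hK hK1
  have h3 : g⁻¹ * y * g ∈ PJ cs h T X J := by
    have := h2 hy
    exact mem_cj.1 this
  have e1 : (g⁻¹ * z) * t * (g⁻¹ * z)⁻¹ = g⁻¹ * y * g := by rw [← hz]; group
  obtain ⟨b, hb, w, k, hk, hq⟩ := mem_PJ_mul_NN R (J := J) (q := g⁻¹ * z) (by rw [hG]; exact Subgroup.mem_top _) ht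
    hreg (by rw [e1]; exact h3)
  refine ⟨(fJ J).comp (rep cs h w).toAddMonoidHom, fun u hu => ?_⟩
  have h4 : g⁻¹ * u * g ∈ VJ cs h X J := mem_cj.1 (h1 hu)
  have h5 : b⁻¹ * (g⁻¹ * u * g) * b ∈ VJ cs h X J := by
    have := (Subgroup.mem_normalizer_iff.1 (PJ_le_normalizer_VJ R J (inv_mem hb)) (g⁻¹ * u * g)).1 h4
    rwa [inv_inv] at this
  have h6 := conj_mem_Sup R hk.inv (S := NotJ cs h J)
    (S' := {a | IsRoot cs h a ∧ 0 < ((fJ J).comp (rep cs h w).toAddMonoidHom) a}) (fun x hx => hx.1)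
    (fun x hx => ⟨hx.1.act _, by
      show 0 < fJ J (rep cs h w (rep cs h w⁻¹ x))
      rw [rep_apply_inv]
      exact fJ_pos hx.2.1 hx.2.2⟩) h5
  rw [inv_inv] at h6
  have e2 : z⁻¹ * u * z = k⁻¹ * (b⁻¹ * (g⁻¹ * u * g) * b) * k := by
    have : z = g * (b * k) := by rw [← hq]; group
    rw [this]; group
  rw [e2]
  exact h6

end Cfsg.Agent.H948.E8.RegPar
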